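import Cfsg.Agent.H141.Ux.Defs
import Cfsg.Agent.H847.Ux.Norm
import Cfsg.Agent.H262.Rx.Red4

/-!
# UR2 for symplectic and unitary groups (helper262)

* `cnt_red` : translation of `Red`;
* `red_kl` : the bound from transitivity on totally isotropic and on nondegenerate subspaces.
-/

set_option autoImplicit false

namespace Cfsg.Agent.H262.Rx

open Module Cfsg.Agent.H847.Bs Cfsg.Agent.H847.Ux
open Cfsg.Agent.H440.Bs (perp mem_perp)
open Cfsg.Agent.H141.Ux (cnt Sca)

variable {F V : Type*} [Field F] [AddCommGroup V] [Module F V]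

/-- the representation -/
def act (G : Subgroup (V ≃ₗ[F] V)) : G →* (V →ₗ[F] V) :=
  (LinearEquiv.automorphismGroup.toLinearMapMonoidHom (R := F) (M := V)).comp G.subtype

theorem act_apply (G : Subgroup (V ≃ₗ[F] V)) (g : G) (v : V) : act G g v = (g : V ≃ₗ[F] V) v := rfl

theorem finite_gl [Finite V] : Finite (V ≃ₗ[F] V) :=
  Finite.of_injective (fun g : V ≃ₗ[F] V => (g : V → V)) DFunLike.coe_injective

theorem cnt_red [Finite V] (G : Subgroup (V ≃ₗ[F] V)) (x : V ≃ₗ[F] V) (hx : x ∈ G) :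
    cnt G (fun y => ¬ IrrG (Subgroup.closure {x, y})) ≤ Nat.card {z : G // Red (act G) ⟨x, hx⟩ z} := by
  have := finite_gl (F := F) (V := V)
  refine Nat.card_le_card_of_injective (fun y => ⟨⟨y.1, y.2.1⟩, ?_⟩) ?_
  · have h := y.2.2
    unfold IrrG at h
    push Not at h
    obtain ⟨W, hW, h0, h1⟩ := h
    refine ⟨W, h0, h1, ?_, ?_⟩
    · rintro _ ⟨v, hv, rfl⟩
      exact hW x (Subgroup.subset_closure (Set.mem_insert _ _)) v hv
    · rintro _ ⟨v, hv, rfl⟩
      exact hW y.1 (Subgroup.subset_closure (Set.mem_insert_of_mem _ rfl)) v hv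
  · intro a b hab
    exact Subtype.ext (congrArg (fun z : {z : G // Red (act G) ⟨x, hx⟩ z} => ((z : G) : V ≃ₗ[F] V)) hab)

theorem kl_le_iso {Φ : Frm F V} {G : Subgroup (V ≃ₗ[F] V)} {N : ℕ} (h : Kl Φ G N) (hN : N ≠ Nat.card F) : G ≤ Φ.Iso := by
  rcases h with ⟨-, rfl, -⟩ | ⟨r, -, rfl, -⟩ | ⟨Q, -, -, -, h⟩
  · exact le_rfl
  · exact inf_le_left
  · exact absurd h hN

theorem kl_nd {Φ : Frm F V} {G : Subgroup (V ≃ₗ[F] V)} {N : ℕ} (h : Kl Φ G N) : Φ.Nd := by
  rcases h with ⟨h, -, -⟩ | ⟨r, h, -, -⟩ | ⟨Q, h, rfl, -, -⟩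
  · exact h.nd
  · exact h.nd
  · exact h

theorem lf_inj {Φ : Frm F V} (hN : Φ.Nd) : Function.Injective (lf Φ) := by
  intro a b hab
  have h1 : ∀ x, Φ.B x (a - b) = 0 := by
    intro x
    have h2 : Φ.B x a = Φ.B x b := congrArg (fun f : V →ₗ[F] F => f x) hab
    have h3 : Φ.B x (a - b) + Φ.B x b = Φ.B x a := by rw [← Φ.add_right, sub_add_cancel]
    rw [h2] at h3
    exact add_eq_right.1 h3
  have h4 : a - b = 0 := hN _ fun y => Φ.refl _ _ (h1 y)
  exact sub_eq_zero.1 h4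

/-- functionals are given by vectors -/
theorem exists_lf [Finite F] [Finite V] {Φ : Frm F V} (hN : Φ.Nd) (c : V →ₗ[F] F) : ∃ w, lf Φ w = c := by
  have hfd : FiniteDimensional F V := Module.Finite.of_finite
  have hfin : Finite (V →ₗ[F] F) := DFunLike.finite _
  have hcard : Nat.card V = Nat.card (V →ₗ[F] F) := by
    have h1 : Nat.card (V →ₗ[F] F) = Nat.card F ^ finrank F (V →ₗ[F] F) := Module.natCard_eq_pow_finrank
    have h2 : Nat.card V = Nat.card F ^ finrank F V := Module.natCard_eq_pow_finrank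
    rw [h1, h2, Module.finrank_linearMap, finrank_self, mul_one]
  exact ((Nat.bijective_iff_injective_and_card (lf Φ)).2 ⟨lf_inj hN, hcard⟩).2 c

/-- the cover for forms -/
theorem cover_frm [Finite F] [Finite V] {Φ : Frm F V} (hN : Φ.Nd) {G : Subgroup (V ≃ₗ[F] V)} (hG : G ≤ Φ.Iso) {a b : G}
    (h : ∃ W : Submodule F V, W ≠ ⊥ ∧ W ≠ ⊤ ∧ W.map (act G a) ≤ W ∧ W.map (act G b) ≤ W) :
    ∃ R : Submodule F V, (R.map (act G a) ≤ R ∧ R.map (act G b) ≤ R) ∧ R ≠ ⊥ ∧ 2 * finrank F R ≤ finrank F V ∧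
      (R ≤ perp Φ R ∨ R ⊓ perp Φ R = ⊥) := by
  have hfd : FiniteDimensional F V := Module.Finite.of_finite
  have hfg := finite_gl (F := F) (V := V)
  have horth : ∀ (y : G) (W : Submodule F V), W.map (act G y) ≤ W → (perp Φ W).map (act G y) ≤ perp Φ W := by
    intro y W hW
    have h1 : W.map (act G y) = W := map_eq_of_le (act G) y hW
    rintro _ ⟨u, hu, rfl⟩ w hw
    rw [← h1] at hw
    obtain ⟨w', hw', rfl⟩ := hw
    rw [act_apply, act_apply, (hG y.2).1]
    exact hu w' hw'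
  obtain ⟨W, h0, h1, ha, hb⟩ := h
  refine cover (K := F) (V := V) (perp Φ) (fun W => ?_) (fun W => ?_) (fun A C hAC => ?_)
    (fun R => R.map (act G a) ≤ R ∧ R.map (act G b) ≤ R) (fun W hW => ⟨horth a W hW.1, horth b W hW.2⟩)
    (fun W W' hW hW' => ⟨?_, ?_⟩) (W := W) ⟨ha, hb⟩ h0 h1
  · have h2 := Cfsg.Agent.H440.Bs.finrank_perp Φ hN W
    omega
  · intro x hx y hy
    exact Φ.refl _ _ (hy x hx)
  · intro x hx y hy
    exact hx y (hAC hy)
  · exact (Submodule.map_inf_le _).trans (inf_le_inf hW.1 hW'.1)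
  · exact (Submodule.map_inf_le _).trans (inf_le_inf hW.2 hW'.2)

/-- **the bound from transitivity on subspaces** -/
theorem red_kl [Finite F] [Finite V] {Φ : Frm F V} {G : Subgroup (V ≃ₗ[F] V)} {N t : ℕ} (h : Kl Φ G N) (hG : G ≤ Φ.Iso)
    (hNt : N * t = Nat.card F) (ht : 4 ≤ t) (hn : 8 ≤ finrank F V)
    (hti : ∀ k, 1 ≤ k → 2 * k ≤ finrank F V → ∀ W W' : Submodule F V, (∀ x ∈ W, ∀ y ∈ W, Φ.B x y = 0) →
      (∀ x ∈ W', ∀ y ∈ W', Φ.B x y = 0) → finrank F W = k → finrank F W' = k →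
      ∃ g ∈ G, W.map (g : V →ₗ[F] V) = W')
    (hnd : ∀ k, 1 ≤ k → 2 * k ≤ finrank F V → ∀ W W' : Submodule F V, Φ.NdOn W → Φ.NdOn W' → finrank F W = k →
      finrank F W' = k → ∃ g ∈ G, W.map (g : V →ₗ[F] V) = W')
    (x : V ≃ₗ[F] V) (hx : x ∈ G) (hxs : ¬ Sca x) :
    (cnt G (fun y => ¬ IrrG (Subgroup.closure {x, y})) : ℝ) * t ≤ 1224 * Nat.card G := by
  classical
  have hfd : FiniteDimensional F V := Module.Finite.of_finite
  have hfg := finite_gl (F := F) (V := V)
  have hN0 : 0 < N := by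
    rcases Nat.eq_zero_or_pos N with h0 | h0
    · rw [h0, zero_mul] at hNt
      exact absurd hNt.symm (Nat.card_pos (α := F)).ne'
    · exact h0
  have hNF : N ≤ Nat.card F := by rw [← hNt]; exact Nat.le_mul_of_pos_right _ (by omega)
  have htF : t ≤ Nat.card F := by rw [← hNt]; exact Nat.le_mul_of_pos_left _ hN0
  have hF0 : 0 < Nat.card F := Nat.card_pos
  have hV : Nat.card V = Nat.card F ^ finrank F V := Module.natCard_eq_pow_finrank
  -- one vector
  have h1 : ∀ v : V, v ≠ 0 → Nat.card F ^ (finrank F V - 1) ≤ 2 * Nat.card (Set.range fun y : G => act G y v) := by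
    intro v hv
    have e1 := n4' h (by omega) hv
    have e2 : Nat.card {p : V // ∃ g ∈ G, p = g v} = Nat.card (Set.range fun y : G => act G y v) := by
      refine Nat.card_congr (Equiv.subtypeEquivRight fun p => ⟨?_, ?_⟩)
      · rintro ⟨g, hg, rfl⟩
        exact ⟨⟨g, hg⟩, rfl⟩
      · rintro ⟨g, rfl⟩
        exact ⟨g.1, g.2, rfl⟩
    rw [e2, hV] at e1
    refine Nat.le_of_mul_le_mul_left ?_ hF0
    calc Nat.card F * Nat.card F ^ (finrank F V - 1) = Nat.card F ^ finrank F V := by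
          rw [← pow_succ']; congr 1; omega
      _ ≤ 2 * N * Nat.card (Set.range fun y : G => act G y v) := e1
      _ ≤ 2 * Nat.card F * Nat.card (Set.range fun y : G => act G y v) :=
          Nat.mul_le_mul_right _ (Nat.mul_le_mul_left _ hNF)
      _ = _ := by ring
  -- the stabiliser of a vector
  have h2 : ∀ v u : V, v ≠ 0 → (¬ ∃ l : F, u = l • v) → Nat.card F ^ (finrank F V - 2) ≤ 2 * Nat.card (sOrb (act G) v u) := by
    intro v u hv hu
    have hu' : u ∉ Submodule.span F {v} := fun h0 => by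
      obtain ⟨l, hl⟩ := Submodule.mem_span_singleton.1 h0
      exact hu ⟨l, hl.symm⟩
    obtain ⟨e, he, hee, heq, hev⟩ := exists_iso h (k := 1) (by omega) ![v]
    have hr : Set.range ![v] = {v} := by simp
    rw [hr] at he
    have hev0 : Φ.B e v = 0 := hev 0
    have e1 := many2 h (p := v) (e := e) hv he hev0 hee heq u (Φ.B u v)
    have e2 : Nat.card {x : V // (Φ.B x v = Φ.B u v ∧ Φ.B x e ≠ 0) ∧ Φ.B x x = Φ.B u u ∧ Φ.q x = Φ.q u} ≤
        Nat.card (sOrb (act G) v u) := by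
      refine Nat.card_mono (Set.toFinite _) ?_
      rintro p ⟨⟨hp1, hp2⟩, hp3, hp4⟩
      have hli : LinearIndependent F ![v, p] := by
        rw [LinearIndependent.pair_iff' hv]
        intro a ha
        apply hp2
        rw [← ha, Φ.smul_left, Φ.refl _ _ hev0, mul_zero]
      have hli' : LinearIndependent F ![v, u] := by
        rw [LinearIndependent.pair_iff' hv]
        intro a ha
        exact hu ⟨a, ha.symm⟩
      obtain ⟨g, hg, h1, h2⟩ := n3 h (by omega) hli' hli rfl (h.swap hp1.symm) hp1.symm hp3.symm rfl hp4.symm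
      exact ⟨⟨g, hg⟩, h1, h2⟩
    rw [hV] at e1
    refine Nat.le_of_mul_le_mul_left ?_ (Nat.mul_pos hF0 hF0)
    calc Nat.card F * Nat.card F * Nat.card F ^ (finrank F V - 2) = Nat.card F ^ finrank F V := by
          rw [← pow_two, ← pow_add]; congr 1; omega
      _ ≤ _ := e1
      _ ≤ 2 * N * Nat.card F * Nat.card (sOrb (act G) v u) := Nat.mul_le_mul_left _ e2
      _ ≤ 2 * Nat.card F * Nat.card F * Nat.card (sOrb (act G) v u) :=
          Nat.mul_le_mul_right _ (Nat.mul_le_mul_right _ (Nat.mul_le_mul_left _ hNF))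
      _ = _ := by ring
  have hF0' : (0 : ℝ) < Nat.card F := by exact_mod_cast hF0
  have hN0' : (0 : ℝ) < N := by exact_mod_cast hN0
  have ht0' : (0 : ℝ) < t := by exact_mod_cast (by omega : 0 < t)
  -- functionals
  have h3 : ∀ k, 1 ≤ k → 2 * k ≤ finrank F V → ∀ W : Submodule F V, finrank F W = k → ∀ c : V →ₗ[F] F, c ≠ 0 →
      (Nat.card {y : G // W.map (act G y) ≤ LinearMap.ker c} : ℝ) ≤
        ((2 : ℝ) / (t : ℝ) ^ k + 2 * (Nat.card F : ℝ) ^ (finrank F V / 2 + 2) / (Nat.card F : ℝ) ^ finrank F V) *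
          Nat.card G := by
    intro k hk1 hk2 W hW c hc
    obtain ⟨w, rfl⟩ := exists_lf (kl_nd h) c
    have hw : w ≠ 0 := by
      rintro rfl
      apply hc
      ext x
      exact Φ.refl _ _ (Cfsg.Agent.H42.Bs.B_zero_left x)
    have e1 := n4' h (by omega) hw
    have e2 : Nat.card {p : V // ∃ g ∈ G, p = g w} ≤ Nat.card (Set.range fun y : G => lf Φ w ∘ₗ act G y) := by
      have hfin : Finite (V →ₗ[F] F) := DFunLike.finite _
      refine Nat.card_le_card_of_injective (fun p => ⟨lf Φ p.1, ?_⟩) ?_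
      · obtain ⟨g, hg, hp⟩ := p.2
        refine ⟨⟨g⁻¹, G.inv_mem hg⟩, ?_⟩
        ext v
        show Φ.B ((g⁻¹ : V ≃ₗ[F] V) v) w = Φ.B v p.1
        rw [hp, ← (hG hg).1]
        congr 1
        exact g.apply_symm_apply v
      · intro a b hab
        exact Subtype.ext (lf_inj (kl_nd h) (congrArg Subtype.val hab))
    have e3 : (Nat.card F : ℝ) ^ finrank F V / (2 * N) ≤ (Nat.card (Set.range fun y : G => lf Φ w ∘ₗ act G y) : ℝ) := by
      rw [div_le_iff₀ (by positivity)]
      rw [hV] at e1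
      have e4 := e1.trans (Nat.mul_le_mul_left _ e2)
      have e5 : (Nat.card F : ℝ) ^ finrank F V ≤ 2 * N * (Nat.card (Set.range fun y : G => lf Φ w ∘ₗ act G y) : ℝ) := by
        exact_mod_cast e4
      linarith
    refine (three_of_orb (act G) W (lf Φ w) (by positivity) e3).trans
      (mul_le_mul_of_nonneg_right ?_ (Nat.cast_nonneg _))
    have e6 : (0 : ℝ) ≤ 2 * (Nat.card F : ℝ) ^ (finrank F V / 2 + 2) / (Nat.card F : ℝ) ^ finrank F V := by positivity
    have e7 : (Nat.card F : ℝ) ^ (finrank F V - finrank F W) / ((Nat.card F : ℝ) ^ finrank F V / (2 * N)) =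
        2 * N / (Nat.card F : ℝ) ^ k := by
      have e8 : (Nat.card F : ℝ) ^ finrank F V = (Nat.card F : ℝ) ^ (finrank F V - k) * (Nat.card F : ℝ) ^ k := by
        rw [← pow_add]; congr 1; omega
      rw [hW, e8]
      field_simp
    have e9 : (2 : ℝ) * N / (Nat.card F : ℝ) ^ k ≤ 2 / (t : ℝ) ^ k := by
      rw [div_le_div_iff₀ (by positivity) (by positivity)]
      have e10 : (Nat.card F : ℝ) = N * t := by exact_mod_cast hNt.symm
      rw [e10, mul_pow]
      have e11 : (N : ℝ) ≤ (N : ℝ) ^ k := le_self_pow₀ (by exact_mod_cast hN0) (by omega)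
      have e12 : (0 : ℝ) < (t : ℝ) ^ k := by positivity
      nlinarith
    rw [e7]
    linarith
  -- the final form
  have key := red_of_kinds (act G) (MonoidHom.id G) Function.injective_id (m := 1) (by rw [one_mul]) hn (q := (t : ℝ))
    (C1 := 2) (by exact_mod_cast ht) (by exact_mod_cast htF) (by norm_num) (fun _ => Bool)
    (fun _ b W => if b = true then (∀ x ∈ W, ∀ y ∈ W, Φ.B x y = 0) else Φ.NdOn W)
    (fun k hk => by
      have e1 : (1 : ℝ) ≤ ((t : ℝ) / 2) ^ (k - 1) := one_le_pow₀ (by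
        have : (4 : ℝ) ≤ t := by exact_mod_cast ht
        linarith)
      have e2 : (Fintype.card Bool : ℝ) = 2 := by rw [Fintype.card_bool]; norm_num
      rw [e2]
      linarith)
    (fun k hk => by
      have e1 : (1 : ℝ) ≤ 2 ^ k := one_le_pow₀ (by norm_num)
      have e2 : (Fintype.card Bool : ℝ) = 2 := by rw [Fintype.card_bool]; norm_num
      have e3 : (4 : ℝ) ≤ Nat.card F := by exact_mod_cast ht.trans htF
      rw [e2]
      nlinarith)
    (fun k hk1 hk2 j W W' hW hW' hd hd' => by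
      cases j with
      | true =>
        simp only [if_true] at hW hW'
        obtain ⟨g, hg, e⟩ := hti k hk1 hk2 W W' hW hW' hd hd'
        exact ⟨⟨g, hg⟩, e⟩
      | false =>
        simp only [Bool.false_eq_true, if_false] at hW hW'
        obtain ⟨g, hg, e⟩ := hnd k hk1 hk2 W W' hW hW' hd hd'
        exact ⟨⟨g, hg⟩, e⟩)
    h1 h2 (fun k hk1 hk2 j W _ hd c hc => h3 k hk1 hk2 W hd c hc) ⟨x, hx⟩ hxs
    (fun z hz => by
      obtain ⟨R, hR, h0, hd, h4⟩ := cover_frm (kl_nd h) hG (a := ⟨x, hx⟩) (b := z) hz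
      refine ⟨finrank F R, ?_, hd, ?_⟩
      · rw [Nat.one_le_iff_ne_zero, Ne, Submodule.finrank_eq_zero]
        exact h0
      rcases h4 with h4 | h4
      · exact ⟨true, R, rfl, by simpa using fun x hx y hy => h4 hx y hy, hR.1, hR.2⟩
      · refine ⟨false, R, rfl, ?_, hR.1, hR.2⟩
        simp only [Bool.false_eq_true, if_false]
        intro x hx hx'
        have : x ∈ R ⊓ perp Φ R := ⟨hx, hx'⟩
        rw [h4] at this
        exact this)
  have e1 : (cnt G (fun y => ¬ IrrG (Subgroup.closure {x, y})) : ℝ) ≤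
      (Nat.card {z : G // Red ((act G).comp (MonoidHom.id G)) ⟨x, hx⟩ z} : ℝ) := by
    exact_mod_cast cnt_red G x hx
  have e2 := e1.trans key
  have e3 : (1 : ℝ) * ((12 * 2 + 1200) / (t : ℝ)) * Nat.card G = 1224 * Nat.card G / t := by ring
  rw [e3, le_div_iff₀ ht0'] at e2
  exact e2

end Cfsg.Agent.H262.Rx
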