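import Cfsg.Agent.H262.Rx.UR0
import Cfsg.Agent.H262.Rx.RedSL
import Cfsg.Agent.H141.Ux.Stmts

/-!
# UR1 (helper262): reducible subgroups of `SL(V)`
-/

set_option autoImplicit false
set_option linter.unusedSectionVars false

namespace Cfsg.Agent.H262.Rx

open Module Cfsg.Agent.H847.Bs
open Cfsg.Agent.H141.Ux (cnt Sca)
open Cfsg.Agent.H141.Rg (slAct)

section

variable {F V : Type*} [Field F] [AddCommGroup V] [Module F V] {n : ℕ}

/-- `SL_n(F) → GL(V)` -/
noncomputable def slW (e : V ≃ₗ[F] (Fin n → F)) (M : Matrix.SpecialLinearGroup (Fin n) F) : V ≃ₗ[F] V :=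
  (e.trans (Matrix.SpecialLinearGroup.toLin' M)).trans e.symm

theorem slW_apply (e : V ≃ₗ[F] (Fin n → F)) (M : Matrix.SpecialLinearGroup (Fin n) F) (v : V) :
    slW e M v = e.symm ((M : Matrix (Fin n) (Fin n) F).mulVec (e v)) := by
  change e.symm (Matrix.SpecialLinearGroup.toLin' M (e v)) = _
  rw [Matrix.SpecialLinearGroup.toLin'_apply]
  rfl

theorem slW_injective (e : V ≃ₗ[F] (Fin n → F)) : Function.Injective (slW e) := by
  intro M N h
  apply Subtype.ext
  apply (Matrix.toLin' (R := F) (m := Fin n) (n := Fin n)).injective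
  apply LinearMap.ext
  intro v
  have h1 := congrArg (fun g : V ≃ₗ[F] V => e (g (e.symm v))) h
  simp only [slW_apply, e.apply_symm_apply] at h1
  exact h1

theorem slW_mem (e : V ≃ₗ[F] (Fin n → F)) (M : Matrix.SpecialLinearGroup (Fin n) F) : slW e M ∈ slV F V := by
  show LinearMap.det ((slW e M : V ≃ₗ[F] V) : V →ₗ[F] V) = 1
  have h1 : ((slW e M : V ≃ₗ[F] V) : V →ₗ[F] V) =
      (e.symm : (Fin n → F) →ₗ[F] V) ∘ₗ (Matrix.toLin' (M : Matrix (Fin n) (Fin n) F)) ∘ₗ (e : V →ₗ[F] (Fin n → F)) := by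
    ext v
    exact slW_apply e M v
  rw [h1]
  have h2 := LinearMap.det_conj (Matrix.toLin' (M : Matrix (Fin n) (Fin n) F)) e.symm
  rw [LinearMap.det_toLin', M.2] at h2
  exact h2

theorem exists_slW (e : V ≃ₗ[F] (Fin n → F)) {g : V ≃ₗ[F] V} (hg : g ∈ slV F V) :
    ∃ M, slW e M = g := by
  let f : (Fin n → F) →ₗ[F] (Fin n → F) :=
    (e : V →ₗ[F] (Fin n → F)) ∘ₗ (g : V →ₗ[F] V) ∘ₗ (e.symm : (Fin n → F) →ₗ[F] V)
  have hdet : (LinearMap.toMatrix' f).det = 1 := by
    rw [LinearMap.det_toMatrix']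
    have h2 : LinearMap.det f = LinearMap.det (g : V →ₗ[F] V) := LinearMap.det_conj (g : V →ₗ[F] V) e
    rw [h2]
    exact hg
  refine ⟨(⟨LinearMap.toMatrix' f, hdet⟩ : Matrix.SpecialLinearGroup (Fin n) F), ?_⟩
  ext v
  refine (slW_apply e _ v).trans ?_
  change e.symm ((LinearMap.toMatrix' f).mulVec (e v)) = g v
  rw [LinearMap.toMatrix'_mulVec]
  change e.symm (e (g (e.symm (e v)))) = g v
  rw [e.symm_apply_apply, e.symm_apply_apply]

end

/-- **UR1** -/
theorem ur1 : Cfsg.Agent.H141.Ux.UR1 := by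
  refine ⟨2448, 8, ?_⟩
  intro F V _ _ _ _ _ hn hF x hx hxs
  have hfV : Finite V := Module.finite_of_finite F
  have := Fintype.ofFinite F
  have hfg := finite_gl (F := F) (V := V)
  let n := finrank F V
  let e : V ≃ₗ[F] (Fin n → F) := (finBasis F V).equivFun
  choose M hM using fun y : slV F V => exists_slW e y.2
  obtain ⟨x', hx'⟩ := exists_slW e hx
  have hact : ∀ (N : Matrix.SpecialLinearGroup (Fin n) F) (v : Fin n → F), slAct n F N v = e (slW e N (e.symm v)) := by
    intro N v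
    rw [slAct_apply, slW_apply, e.apply_symm_apply, e.apply_symm_apply]
  have hx's : ¬ ∃ l : F, ∀ v, slAct n F x' v = l • v := by
    rintro ⟨l, hl⟩
    apply hxs
    refine ⟨l, fun v => ?_⟩
    have h1 := hl (e v)
    rw [hact, e.symm_apply_apply, hx', ← map_smul] at h1
    exact e.injective h1
  have h1 := red_sl (n := n) (F := F) hn hF x' hx's
  have h2 : cnt (slV F V) (fun y => ¬ IrrG (Subgroup.closure {x, y})) ≤
      Nat.card {z : Matrix.SpecialLinearGroup (Fin n) F // Red (slAct n F) x' z} := by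
    refine Nat.card_le_card_of_injective (fun y => ⟨M ⟨y.1, y.2.1⟩, ?_⟩) ?_
    · have h := y.2.2
      unfold IrrG at h
      push Not at h
      obtain ⟨W, hW, h0, h1⟩ := h
      have hinv : ∀ (g : V ≃ₗ[F] V) (N : Matrix.SpecialLinearGroup (Fin n) F), slW e N = g → (∀ v ∈ W, g v ∈ W) →
          (W.map (e : V →ₗ[F] (Fin n → F))).map (slAct n F N) ≤ W.map (e : V →ₗ[F] (Fin n → F)) := by
        rintro g N rfl hg _ ⟨_, ⟨v, hv, rfl⟩, rfl⟩
        rw [hact]
        refine ⟨slW e N v, hg v hv, ?_⟩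
        show e (slW e N v) = e (slW e N (e.symm (e v)))
        rw [e.symm_apply_apply]
      refine ⟨W.map (e : V →ₗ[F] (Fin n → F)), ?_, ?_, ?_, ?_⟩
      · intro h3
        exact h0 ((Submodule.map_eq_bot_iff (p := W) (e := e)).1 h3)
      · intro h3
        apply h1
        have h4 := congrArg (Submodule.map (e.symm : (Fin n → F) →ₗ[F] V)) h3
        rw [← Submodule.map_comp, Submodule.map_top, LinearEquiv.range] at h4
        have h5 : (e.symm : (Fin n → F) →ₗ[F] V) ∘ₗ (e : V →ₗ[F] (Fin n → F)) = LinearMap.id := by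
          ext v
          exact e.symm_apply_apply v
        rw [h5, Submodule.map_id] at h4
        exact h4
      · exact hinv x x' hx' (hW x (Subgroup.subset_closure (Set.mem_insert _ _)))
      · exact hinv y.1 _ (hM ⟨y.1, y.2.1⟩) (hW y.1 (Subgroup.subset_closure (Set.mem_insert_of_mem _ rfl)))
    · intro a b hab
      have h3 : M ⟨a.1, a.2.1⟩ = M ⟨b.1, b.2.1⟩ := congrArg Subtype.val hab
      have h4 := congrArg (slW e) h3
      rw [hM, hM] at h4
      exact Subtype.ext h4
  have h3 : Nat.card (Matrix.SpecialLinearGroup (Fin n) F) ≤ Nat.card (slV F V) :=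
    Nat.card_le_card_of_injective (fun N => ⟨slW e N, slW_mem e N⟩) fun a b hab =>
      slW_injective e (congrArg Subtype.val hab)
  have hF0 : (0 : ℝ) < Nat.card F := by exact_mod_cast Nat.card_pos (α := F)
  have h4 : (cnt (slV F V) (fun y => ¬ IrrG (Subgroup.closure {x, y})) : ℝ) ≤
      2448 / (Nat.card F : ℝ) * Nat.card (slV F V) := by
    refine le_trans (by exact_mod_cast h2) (h1.trans ?_)
    exact mul_le_mul_of_nonneg_left (by exact_mod_cast h3) (by positivity)
  rw [div_mul_eq_mul_div, le_div_iff₀ hF0] at h4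
  exact h4

end Cfsg.Agent.H262.Rx
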