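import Cfsg.Agent.H262.Rx.URT
import Cfsg.Agent.H141.Ux.Stmts

/-!
# UR2 (helper262): reducible subgroups, groups with a form; assembly
-/

set_option autoImplicit false

namespace Cfsg.Agent.H262.Rx

open Module Cfsg.Agent.H847.Bs Cfsg.Agent.LieClassical.OrthCore
open Cfsg.Agent.H141.Ux (cnt Sca)

/-- the orthogonal case of UR2 (helper888) -/
def UrOm : Prop := ∃ C : ℝ, ∀ (F V : Type) [Field F] [Finite F] [AddCommGroup V] [Module F V] [Module.Finite F V]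
  (Q : QuadraticForm F V), (frmQ Q).Nd → 8 ≤ finrank F V → 4 ≤ Nat.card F → ∀ x ∈ E Q, ¬ Sca x →
  (cnt (E Q) (fun y => ¬ IrrG (Subgroup.closure {x, y})) : ℝ) * Nat.card F ≤ C * Nat.card (E Q)

/-- **UR2** -/
theorem ur2 (hom : UrOm) : Cfsg.Agent.H141.Ux.UR2 := by
  obtain ⟨C, hC⟩ := hom
  refine ⟨max 1224 C, 8, ?_⟩
  intro F V _ _ _ _ _ Φ G N t hK hn ht x hx hxs
  have hfV : Finite V := Module.finite_of_finite F
  rcases hK with ⟨h, rfl, rfl, rfl⟩ | ⟨r, h, rfl, rfl, rfl⟩ | ⟨Q, h, rfl, rfl, rfl, rfl⟩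
  · exact (ur_sp h ht hn x hx hxs).trans (mul_le_mul_of_nonneg_right (le_max_left _ _) (Nat.cast_nonneg _))
  · exact (ur_su h ht hn x hx hxs).trans (mul_le_mul_of_nonneg_right (le_max_left _ _) (Nat.cast_nonneg _))
  · exact (hC F V Q h hn ht x hx hxs).trans (mul_le_mul_of_nonneg_right (le_max_right _ _) (Nat.cast_nonneg _))

end Cfsg.Agent.H262.Rx
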