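import Cfsg.Agent.H262.Rx.URO

/-!
# Kinds of subspaces of a quadratic space (helper262)
-/

set_option autoImplicit false

namespace Cfsg.Agent.H262.Rx

open Module QuadraticMap Cfsg.Agent.H847.Bs Cfsg.Agent.H847.Ux Cfsg.Agent.LieClassical.OrthCore
open Cfsg.Agent.H440.Bs (perp mem_perp)
open Cfsg.Agent.H141.Ux (cnt Sca)

variable {F V : Type} [Field F] [AddCommGroup V] [Module F V] {Q : QuadraticForm F V}

open Classical in
/-- the first type of nondegenerate subspaces: plus type, or an orthonormal basis -/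
def TyA (Q : QuadraticForm F V) (W : Submodule F V) : Prop :=
  if Even (finrank F W) then PlusT (Q.comp W.subtype)
  else ∃ b : Basis (Fin (finrank F W)) F W, (∀ i j, i ≠ j → polar Q (b i) (b j) = 0) ∧ ∀ i, polar Q (b i) (b i) = 1

/-- kinds: totally singular, nondegenerate of the two types, nonsingular lines in characteristic two -/
def Kd (Q : QuadraticForm F V) (j : Fin 4) (W : Submodule F V) : Prop :=
  (j = 0 → ∀ x ∈ W, Q x = 0) ∧ (j = 1 → (frmQ Q).NdOn W ∧ TyA Q W) ∧ (j = 2 → (frmQ Q).NdOn W ∧ ¬ TyA Q W) ∧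
  (j = 3 → (2 : F) = 0 ∧ finrank F W = 1 ∧ ∀ x ∈ W, x ≠ 0 → Q x ≠ 0)

theorem nondeg_comp {W : Submodule F V} (h : (frmQ Q).NdOn W) : Nondeg (Q.comp W.subtype) :=
  fun x hx => Subtype.ext (h x x.2 fun y hy => hx ⟨y, hy⟩)

/-- nondegenerate subspaces of odd dimension: odd characteristic -/
theorem two_ne_of_odd [FiniteDimensional F V] {W : Submodule F V} (h : (frmQ Q).NdOn W) (ho : ¬ Even (finrank F W)) :
    (2 : F) ≠ 0 := by
  intro h2
  apply ho
  let B : LinearMap.BilinForm F W := polarBilin (Q.comp W.subtype)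
  have hA : B.IsAlt := fun x => by
    show polar Q (x : V) (x : V) = 0
    rw [polar_self_eq, h2, zero_mul]
  obtain ⟨m, k, b, -, -, -, h4⟩ := Cfsg.Agent.S0752.result B hA
  have hk : k = 0 := by
    by_contra hk
    have h5 : (b (Sum.inr ⟨0, Nat.pos_of_ne_zero hk⟩) : V) = 0 :=
      h _ (Subtype.property _) fun y hy => h4 ⟨0, Nat.pos_of_ne_zero hk⟩ ⟨y, hy⟩
    exact b.ne_zero _ (Subtype.ext h5)
  subst hk
  have := finrank_eq_card_basis b
  rw [Fintype.card_sum, Fintype.card_sum, Fintype.card_fin, Fintype.card_fin] at this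
  exact ⟨m, by omega⟩

/-- isometry from bases with the same Gram matrix, odd characteristic -/
theorem iso_of_gram (h2 : (2 : F) ≠ 0) {ι : Type} [Fintype ι] {W W' : Submodule F V} (b : Basis ι F W) (b' : Basis ι F W')
    (h : ∀ i j, polar Q (b i) (b j) = polar Q (b' i) (b' j)) : ∃ e : W ≃ₗ[F] W', ∀ x, Q (e x) = Q x := by
  let e := b.equiv b' (Equiv.refl ι)
  let B1 : LinearMap.BilinForm F W := polarBilin (Q.comp W.subtype)
  let B2 : LinearMap.BilinForm F W := (polarBilin (Q.comp W'.subtype)).compl₁₂ e.toLinearMap e.toLinearMap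
  have hE : B2 = B1 := by
    refine LinearMap.BilinForm.ext_basis b fun i j => ?_
    show polar Q (e (b i) : V) (e (b j) : V) = polar Q (b i : V) (b j : V)
    rw [Basis.equiv_apply, Basis.equiv_apply, Equiv.refl_apply, Equiv.refl_apply, h]
  refine ⟨e, fun x => ?_⟩
  have h3 : polar Q (e x : V) (e x : V) = polar Q (x : V) (x : V) :=
    congrArg (fun C : LinearMap.BilinForm F W => C x x) hE
  rw [polar_self_eq, polar_self_eq] at h3
  exact mul_left_cancel₀ h2 h3

/-- a basis of the second type -/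
theorem exists_basis_b [Finite F] [FiniteDimensional F V] {W : Submodule F V} (h : (frmQ Q).NdOn W)
    (ho : ¬ Even (finrank F W)) (hT : ¬ TyA Q W) {α : F} (hα : ¬ IsSquare α) {n : ℕ} (hn : finrank F W = n + 1) :
    ∃ b : Basis (Fin (n + 1)) F W, (∀ i j, i ≠ j → polar Q (b i) (b j) = 0) ∧
      (∀ i, i ≠ Fin.last n → polar Q (b i) (b i) = 1) ∧ polar Q (b (Fin.last n)) (b (Fin.last n)) = α := by
  have h2 := two_ne_of_odd h ho
  have hnd := nondeg_comp h
  obtain ⟨b, h1, h3, h4⟩ := Cfsg.Agent.S0756.result h2 (polarBilin (Q.comp W.subtype))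
    ⟨fun x y => polar_comm _ _ _⟩ ⟨fun x hx => hnd x hx, fun x hx => hnd x fun y => by
      rw [polar_comm]; exact hx y⟩ hn α hα
  refine ⟨b, h1, h3, h4.resolve_left fun h5 => hT ?_⟩
  rw [TyA, if_neg ho]
  refine ⟨b.reindex (finCongr hn.symm), fun i j hij => ?_, fun i => ?_⟩
  · rw [Basis.reindex_apply, Basis.reindex_apply]
    exact h1 _ _ fun h6 => hij ((finCongr hn.symm).symm.injective h6)
  · rw [Basis.reindex_apply]
    by_cases h6 : (finCongr hn.symm).symm i = Fin.last n
    · rw [h6]; exact h5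
    · exact h3 _ h6

/-- **subspaces of the same kind are isometric** -/
theorem iso_of_kind [Finite F] [FiniteDimensional F V] {j : Fin 4} {W W' : Submodule F V} (hW : Kd Q j W)
    (hW' : Kd Q j W') (hd : finrank F W = finrank F W') (h1 : 1 ≤ finrank F W) :
    ∃ e : W ≃ₗ[F] W', ∀ x, Q (e x) = Q x := by
  fin_cases j
  · obtain ⟨e⟩ : Nonempty (W ≃ₗ[F] W') := ⟨LinearEquiv.ofFinrankEq _ _ hd⟩
    exact ⟨e, fun x => by rw [hW.1 rfl _ x.2, hW'.1 rfl _ (e x).2]⟩
  · obtain ⟨hn, hT⟩ := hW.2.1 rfl
    obtain ⟨hn', hT'⟩ := hW'.2.1 rfl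
    by_cases he : Even (finrank F W)
    · have he' : Even (finrank F W') := hd ▸ he
      rw [TyA, if_pos he] at hT
      rw [TyA, if_pos he'] at hT'
      obtain ⟨m, hm⟩ := he
      obtain ⟨e, hq⟩ := Cfsg.Agent.H59.Bs.exists_iso_of_plus m (nondeg_comp hn) hT (by omega)
      obtain ⟨e', hq'⟩ := Cfsg.Agent.H59.Bs.exists_iso_of_plus m (nondeg_comp hn') hT' (by omega)
      refine ⟨e.symm.trans e', fun x => ?_⟩
      have h3 := hq (e.symm x)
      have h4 := hq' (e.symm x)
      rw [e.apply_symm_apply] at h3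
      show Q (e' (e.symm x) : V) = Q (x : V)
      exact h4.trans h3.symm
    · have he' : ¬ Even (finrank F W') := hd ▸ he
      have h2 := two_ne_of_odd hn he
      rw [TyA, if_neg he] at hT
      rw [TyA, if_neg he'] at hT'
      obtain ⟨b, hb1, hb2⟩ := hT
      obtain ⟨b', hb1', hb2'⟩ := hT'
      refine iso_of_gram h2 b (b'.reindex (finCongr hd.symm)) fun i l => ?_
      rw [Basis.reindex_apply, Basis.reindex_apply]
      by_cases hil : i = l
      · subst hil
        rw [hb2, hb2']
      · rw [hb1 _ _ hil, hb1' _ _ fun h6 => hil ((finCongr hd.symm).symm.injective h6)]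
  · obtain ⟨hn, hT⟩ := hW.2.2.1 rfl
    obtain ⟨hn', hT'⟩ := hW'.2.2.1 rfl
    by_cases he : Even (finrank F W)
    · have he' : Even (finrank F W') := hd ▸ he
      rw [TyA, if_pos he] at hT
      rw [TyA, if_pos he'] at hT'
      obtain ⟨m, hm⟩ := he
      exact Cfsg.Agent.H541.Ux.quad_iso (m := m) (nondeg_comp hn) (nondeg_comp hn') (by omega) (by omega) (by omega) hT hT'
    · have he' : ¬ Even (finrank F W') := hd ▸ he
      have h2 := two_ne_of_odd hn he
      obtain ⟨n, hn1⟩ : ∃ n, finrank F W = n + 1 := ⟨finrank F W - 1, by omega⟩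
      obtain ⟨α, hα⟩ := FiniteField.exists_nonsquare (F := F) (by
        intro h3
        have h4 := CharP.cast_eq_zero F (ringChar F)
        rw [h3] at h4
        exact h2 (by exact_mod_cast h4))
      obtain ⟨b, hb1, hb2, hb3⟩ := exists_basis_b hn he hT hα hn1
      obtain ⟨b', hb1', hb2', hb3'⟩ := exists_basis_b hn' he' hT' hα (hd ▸ hn1)
      refine iso_of_gram h2 b b' fun i l => ?_
      by_cases hil : i = l
      · subst hil
        by_cases hi : i = Fin.last n
        · subst hi; rw [hb3, hb3']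
        · rw [hb2 _ hi, hb2' _ hi]
      · rw [hb1 _ _ hil, hb1' _ _ hil]
  · obtain ⟨h2, hd1, hq⟩ := hW.2.2.2 rfl
    obtain ⟨-, hd1', hq'⟩ := hW'.2.2.2 rfl
    have := Fintype.ofFinite F
    obtain ⟨v, hv0, hv⟩ := finrank_eq_one_iff'.1 hd1
    obtain ⟨v', hv0', hv'⟩ := finrank_eq_one_iff'.1 hd1'
    have hQv : Q (v : V) ≠ 0 := hq v v.2 fun h => hv0 (Subtype.ext h)
    have hQv' : Q (v' : V) ≠ 0 := hq' v' v'.2 fun h => hv0' (Subtype.ext h)
    have hchar : ringChar F = 2 := by
      have : CharP F 2 := CharTwo.of_one_ne_zero_of_two_eq_zero one_ne_zero h2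
      exact ringChar.eq F 2
    obtain ⟨c, hc⟩ := FiniteField.isSquare_of_char_two hchar (Q (v : V) / Q (v' : V))
    have hc0 : c ≠ 0 := by
      rintro rfl
      rw [mul_zero] at hc
      exact (div_ne_zero hQv hQv') hc
    have hw0 : c • v' ≠ 0 := smul_ne_zero hc0 hv0'
    let b : Basis Unit F W := Basis.mk (v := fun _ : Unit => v) (LinearIndependent.of_subsingleton () hv0) (by
      intro x _
      obtain ⟨a, rfl⟩ := hv x
      exact Submodule.smul_mem _ _ (Submodule.subset_span ⟨(), rfl⟩))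
    let b' : Basis Unit F W' := Basis.mk (v := fun _ : Unit => c • v') (LinearIndependent.of_subsingleton () hw0) (by
      intro x _
      obtain ⟨a, rfl⟩ := hv' x
      have : a • v' = (a * c⁻¹) • (c • v') := by rw [smul_smul, inv_mul_cancel_right₀ hc0]
      rw [this]
      exact Submodule.smul_mem _ _ (Submodule.subset_span ⟨(), rfl⟩))
    refine ⟨b.equiv b' (Equiv.refl _), fun x => ?_⟩
    obtain ⟨a, rfl⟩ := hv x
    have e1 : b.equiv b' (Equiv.refl _) v = c • v' := by
      have := b.equiv_apply () b' (Equiv.refl _)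
      simpa [b, b'] using this
    rw [map_smul, e1]
    show Q (a • (c • (v' : V))) = Q (a • (v : V))
    rw [QuadraticMap.map_smul, QuadraticMap.map_smul, QuadraticMap.map_smul, smul_eq_mul, smul_eq_mul, smul_eq_mul, ← hc,
      div_mul_cancel₀ _ hQv']

/-- **transitivity on the subspaces of a kind** -/
theorem om_trans [Finite F] [FiniteDimensional F V] (hQ : (frmQ Q).Nd) {j : Fin 4} {W W' : Submodule F V}
    (hW : Kd Q j W) (hW' : Kd Q j W') (hd : finrank F W = finrank F W') (h1 : 1 ≤ finrank F W) :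
    ∃ g ∈ O Q, W.map (g : V →ₗ[F] V) = W' := by
  obtain ⟨e, he⟩ := iso_of_kind hW hW' hd h1
  have hnd : (polarBilin Q).Nondegenerate :=
    ⟨fun x hx => hQ x hx, fun x hx => hQ x fun y => by
      show polar Q x y = 0
      rw [polar_comm]; exact hx y⟩
  let b := finBasis F W
  have hli : LinearIndependent F (fun i => (b i : V)) := b.linearIndependent.map' W.subtype (Submodule.ker_subtype W)
  let b' := b.map e
  have hli' : LinearIndependent F (fun i => (b' i : V)) :=
    b'.linearIndependent.map' W'.subtype (Submodule.ker_subtype W')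
  have hb' : ∀ i, (b' i : V) = (e (b i) : V) := fun i => by rw [Basis.map_apply]
  have hpol : ∀ x y : W, polar Q (e x : V) (e y : V) = polar Q (x : V) (y : V) := by
    intro x y
    have h1 : (e x : V) + (e y : V) = (e (x + y) : V) := by rw [map_add, Submodule.coe_add]
    rw [polar, polar, h1, he, he, he, Submodule.coe_add]
  obtain ⟨g, hg, hgb⟩ := Cfsg.Agent.ClassicalGeometry.WittQuad.extend_family Q hnd _ (fun i => (b i : V))
    (fun i => (b' i : V)) hli hli' (fun i => by
      show Q (b i : V) = Q (b' i : V)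
      rw [hb', he]) (fun i l => by
      show polar Q (b i : V) (b l : V) = polar Q (b' i : V) (b' l : V)
      rw [hb', hb', hpol])
  refine ⟨g, hg, ?_⟩
  have hs : W = Submodule.span F (Set.range fun i => (b i : V)) := by
    have h1 : Set.range (fun i => (b i : V)) = W.subtype '' Set.range b := by rw [← Set.range_comp]; rfl
    rw [h1, ← Submodule.map_span, b.span_eq, Submodule.map_top, Submodule.range_subtype]
  have hs' : W' = Submodule.span F (Set.range fun i => (b' i : V)) := by
    have h1 : Set.range (fun i => (b' i : V)) = W'.subtype '' Set.range b' := by rw [← Set.range_comp]; rfl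
    rw [h1, ← Submodule.map_span, b'.span_eq, Submodule.map_top, Submodule.range_subtype]
  conv_lhs => rw [hs]
  rw [hs', Submodule.map_span, ← Set.range_comp]
  congr 2
  funext i
  exact hgb i

/-- **the cover** -/
theorem om_cover [Finite F] [Finite V] (hQ : (frmQ Q).Nd) {a b : O Q}
    (h : ∃ W : Submodule F V, W ≠ ⊥ ∧ W ≠ ⊤ ∧ W.map (act (O Q) a) ≤ W ∧ W.map (act (O Q) b) ≤ W) :
    ∃ R : Submodule F V, R ≠ ⊥ ∧ 2 * finrank F R ≤ finrank F V ∧ R.map (act (O Q) a) ≤ R ∧ R.map (act (O Q) b) ≤ R ∧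
      ∃ j : Fin 4, Kd Q j R := by
  have hfd : FiniteDimensional F V := Module.Finite.of_finite
  obtain ⟨R, hR, h0, hd, h4⟩ := cover_frm hQ O_le_iso h
  rcases h4 with h4 | h4
  · -- totally isotropic
    have hB : ∀ x ∈ R, ∀ y ∈ R, polar Q x y = 0 := fun x hx y hy => h4 hx y hy
    by_cases h2 : (2 : F) = 0
    · let K : Submodule F V :=
        { carrier := {x | x ∈ R ∧ Q x = 0}
          add_mem' := fun {x y} hx hy => ⟨R.add_mem hx.1 hy.1, by
            rw [Q_add, hx.2, hy.2, hB x hx.1 y hy.1]; ring⟩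
          zero_mem' := ⟨R.zero_mem, by simp⟩
          smul_mem' := fun c x hx => ⟨R.smul_mem _ hx.1, by rw [QuadraticMap.map_smul, hx.2, smul_zero]⟩ }
      have hKR : K ≤ R := fun x hx => hx.1
      by_cases hK : K = ⊥
      · refine ⟨R, h0, hd, hR.1, hR.2, 3, ?_⟩
        have hne : ∀ x ∈ R, x ≠ 0 → Q x ≠ 0 := by
          intro x hx hx0 hq
          have : x ∈ K := ⟨hx, hq⟩
          rw [hK, Submodule.mem_bot] at this
          exact hx0 this
        refine ⟨fun h => absurd h (by decide), fun h => absurd h (by decide), fun h => absurd h (by decide),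
          fun _ => ⟨h2, ?_, hne⟩⟩
        obtain ⟨v, hv, hv0⟩ := Submodule.exists_mem_ne_zero_of_ne_bot h0
        have := Fintype.ofFinite F
        have hchar : ringChar F = 2 := by
          have : CharP F 2 := CharTwo.of_one_ne_zero_of_two_eq_zero one_ne_zero h2
          exact ringChar.eq F 2
        rw [finrank_eq_one_iff']
        refine ⟨⟨v, hv⟩, fun h => hv0 (congrArg Subtype.val h), fun w => ?_⟩
        obtain ⟨c, hc⟩ := FiniteField.isSquare_of_char_two hchar (Q (w : V) / Q v)
        refine ⟨c, ?_⟩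
        have hQv : Q v ≠ 0 := hne v hv hv0
        have hcv : c • v - (w : V) ∈ K := by
          refine ⟨R.sub_mem (R.smul_mem _ hv) w.2, ?_⟩
          have e1 : c • v - (w : V) = c • v + (-1 : F) • (w : V) := by rw [neg_one_smul, sub_eq_add_neg]
          rw [e1, Q_add, hB _ (R.smul_mem _ hv) _ (R.smul_mem _ w.2), QuadraticMap.map_smul, QuadraticMap.map_smul,
            smul_eq_mul, smul_eq_mul, ← hc, div_mul_cancel₀ _ hQv]
          linear_combination (Q (w : V)) * h2
        rw [hK, Submodule.mem_bot, sub_eq_zero] at hcv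
        exact Subtype.ext hcv
      · refine ⟨K, hK, ?_, ?_, ?_, 0, ?_⟩
        · have := Submodule.finrank_mono hKR
          omega
        · rintro _ ⟨x, hx, rfl⟩
          exact ⟨hR.1 ⟨x, hx.1, rfl⟩, by
            show Q ((a : V ≃ₗ[F] V) x) = 0
            rw [mem_O.1 a.2]; exact hx.2⟩
        · rintro _ ⟨x, hx, rfl⟩
          exact ⟨hR.2 ⟨x, hx.1, rfl⟩, by
            show Q ((b : V ≃ₗ[F] V) x) = 0
            rw [mem_O.1 b.2]; exact hx.2⟩
        · exact ⟨fun _ x hx => hx.2, fun h => absurd h (by decide), fun h => absurd h (by decide),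
            fun h => absurd h (by decide)⟩
    · refine ⟨R, h0, hd, hR.1, hR.2, 0, fun _ x hx => ?_, fun h => absurd h (by decide),
        fun h => absurd h (by decide), fun h => absurd h (by decide)⟩
      have h5 := hB x hx x hx
      rw [polar_self_eq] at h5
      exact (mul_eq_zero.1 h5).resolve_left h2
  · have hnd : (frmQ Q).NdOn R := by
      intro x hx hx'
      have : x ∈ R ⊓ perp (frmQ Q) R := ⟨hx, hx'⟩
      rw [h4] at this
      exact this
    by_cases hT : TyA Q R
    · exact ⟨R, h0, hd, hR.1, hR.2, 1, fun h => absurd h (by decide), fun _ => ⟨hnd, hT⟩,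
        fun h => absurd h (by decide), fun h => absurd h (by decide)⟩
    · exact ⟨R, h0, hd, hR.1, hR.2, 2, fun h => absurd h (by decide), fun h => absurd h (by decide),
        fun _ => ⟨hnd, hT⟩, fun h => absurd h (by decide)⟩

end Cfsg.Agent.H262.Rx
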