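import Cfsg.Agent.H262.Rx.UR0
import Cfsg.Agent.H541.Ux.IsoE
import Cfsg.Agent.H59.Bs.OType
import Cfsg.Agent.H765.Bs.Kap
import Cfsg.Agent.S0756
import Cfsg.Agent.S0752
import Cfsg.Agent.ClassicalGeometry.WittQuad

/-!
# The orthogonal case of UR2 (helper262)

* `om_three` : images of a subspace in a hyperplane;
* `Kind` : kinds of subspaces, `iso_of_kind` : subspaces of the same kind are isometric;
* `om_cover` : invariant subspaces of a kind.
-/

set_option autoImplicit false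

namespace Cfsg.Agent.H262.Rx

open Module QuadraticMap Cfsg.Agent.H847.Bs Cfsg.Agent.H847.Ux Cfsg.Agent.LieClassical.OrthCore
open Cfsg.Agent.H440.Bs (perp mem_perp)
open Cfsg.Agent.H141.Ux (cnt Sca)

section three

variable {F V : Type*} [Field F] [AddCommGroup V] [Module F V] {Q : QuadraticForm F V}

theorem O_le_iso : O Q ≤ (frmQ Q).Iso := by
  intro g hg
  exact ⟨fun x y => polar_map hg x y, fun x => mem_O.1 hg x⟩

/-- the number of vectors of a given norm in `W^⊥` -/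
theorem card_perp_norm [Finite F] [Finite V] (hQ : (frmQ Q).Nd) (W : Submodule F V) {k : ℕ} (hk : finrank F W = k)
    (hk2 : 2 * k ≤ finrank F V) (a : F) :
    Nat.card F * Nat.card {u : V // u ∈ perp (frmQ Q) W ∧ Q u = a} ≤
      2 * Nat.card F ^ (finrank F V - k) + Nat.card F ^ (finrank F V / 2 + 1) := by
  have hfd : FiniteDimensional F V := Module.Finite.of_finite
  have hd := Cfsg.Agent.H440.Bs.finrank_perp (frmQ Q) hQ W
  have hcard : Nat.card (perp (frmQ Q) W) = Nat.card F ^ (finrank F V - k) := by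
    have h1 : Nat.card (perp (frmQ Q) W) = Nat.card F ^ finrank F (perp (frmQ Q) W) := Module.natCard_eq_pow_finrank
    rw [h1]
    congr 1
    omega
  by_cases h : ∃ ρ ∈ perp (frmQ Q) W, Q ρ ≠ 0
  · obtain ⟨ρ, hρ, hρ0⟩ := h
    have h1 := n2q (Φ := frmQ Q) (G := E Q) (N := Nat.card F) (Or.inr (Or.inr ⟨Q, hQ, rfl, rfl, rfl⟩))
      (perp (frmQ Q) W) hρ (Or.inr (Or.inr hρ0)) 0 (2 * a) a
    rw [hcard] at h1
    refine le_trans (Nat.mul_le_mul_left _ (Nat.card_mono (Set.toFinite _) ?_)) (h1.trans (Nat.le_add_right _ _))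
    rintro u ⟨hu, hua⟩
    refine ⟨by rw [sub_zero]; exact hu, ?_, hua⟩
    show polar Q u u = 2 * a
    rw [polar_self_eq, hua]
  · push Not at h
    have h2 : (frmQ Q).TI (perp (frmQ Q) W) := Cfsg.Agent.H59.Bs.ti_iff.2 h
    have h3 := Cfsg.Agent.H440.Bs.two_mul_finrank_le (frmQ Q) hQ h2.1
    have h4 : Nat.card {u : V // u ∈ perp (frmQ Q) W ∧ Q u = a} ≤ Nat.card (perp (frmQ Q) W) :=
      Nat.card_mono (Set.toFinite _) fun u hu => hu.1
    rw [hcard] at h4
    have hF0 : 0 < Nat.card F := Nat.card_pos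
    calc Nat.card F * Nat.card {u : V // u ∈ perp (frmQ Q) W ∧ Q u = a} ≤
        Nat.card F * Nat.card F ^ (finrank F V - k) := Nat.mul_le_mul_left _ h4
      _ = Nat.card F ^ (finrank F V - k + 1) := by rw [pow_succ, mul_comm]
      _ ≤ Nat.card F ^ (finrank F V / 2 + 1) := Nat.pow_le_pow_right hF0 (by omega)
      _ ≤ _ := Nat.le_add_left _ _

/-- **hypothesis (3)** -/
theorem om_three [Finite F] [Finite V] (hQ : (frmQ Q).Nd) (h5 : 5 ≤ finrank F V) (W : Submodule F V) {k : ℕ}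
    (hk : finrank F W = k) (hk2 : 2 * k ≤ finrank F V) (c : V →ₗ[F] F) (hc : c ≠ 0) :
    (Nat.card {y : O Q // W.map (act (O Q) y) ≤ LinearMap.ker c} : ℝ) ≤
      ((4 : ℝ) / (Nat.card F : ℝ) ^ k + 2 * (Nat.card F : ℝ) ^ (finrank F V / 2 + 2) / (Nat.card F : ℝ) ^ finrank F V) *
        Nat.card (O Q) := by
  classical
  have hfd : FiniteDimensional F V := Module.Finite.of_finite
  have hfg := finite_gl (F := F) (V := V)
  have hfin : Finite (V →ₗ[F] F) := DFunLike.finite _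
  obtain ⟨w, rfl⟩ := exists_lf hQ c
  have hw : w ≠ 0 := by
    rintro rfl
    apply hc
    ext x
    exact (frmQ Q).refl _ _ (Cfsg.Agent.H42.Bs.B_zero_left x)
  have hK : Kl (frmQ Q) (E Q) (Nat.card F) := Or.inr (Or.inr ⟨Q, hQ, rfl, rfl, rfl⟩)
  have e1 := n4' hK h5 hw
  have hV : Nat.card V = Nat.card F ^ finrank F V := Module.natCard_eq_pow_finrank
  rw [hV] at e1
  have e2 : Nat.card {p : V // ∃ g ∈ E Q, p = g w} ≤ Nat.card (Set.range fun y : O Q => lf (frmQ Q) w ∘ₗ act (O Q) y) := by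
    refine Nat.card_le_card_of_injective (fun p => ⟨lf (frmQ Q) p.1, ?_⟩) ?_
    · obtain ⟨g, hg, hp⟩ := p.2
      refine ⟨⟨g⁻¹, (O Q).inv_mem (E_le_O hg)⟩, ?_⟩
      ext v
      show (frmQ Q).B ((g⁻¹ : V ≃ₗ[F] V) v) w = (frmQ Q).B v p.1
      rw [hp, ← (O_le_iso (E_le_O hg)).1]
      congr 1
      exact g.apply_symm_apply v
    · intro a b hab
      exact Subtype.ext (lf_inj hQ (congrArg Subtype.val hab))
  have e3 := card_ker_le (act (O Q)) W (lf (frmQ Q) w)
  have e4 : Nat.card {d : V →ₗ[F] F // (∃ y, d = lf (frmQ Q) w ∘ₗ act (O Q) y) ∧ W ≤ LinearMap.ker d} ≤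
      Nat.card {u : V // u ∈ perp (frmQ Q) W ∧ Q u = Q w} := by
    have key : ∀ d : {d : V →ₗ[F] F // (∃ y, d = lf (frmQ Q) w ∘ₗ act (O Q) y) ∧ W ≤ LinearMap.ker d},
        ∃ u : V, (u ∈ perp (frmQ Q) W ∧ Q u = Q w) ∧ lf (frmQ Q) u = d.1 := by
      rintro ⟨_, ⟨y, rfl⟩, hW⟩
      have hy : ∀ v, (y : V ≃ₗ[F] V) ((y⁻¹ : V ≃ₗ[F] V) v) = v := fun v => (y : V ≃ₗ[F] V).apply_symm_apply v
      have hlf : lf (frmQ Q) ((y⁻¹ : V ≃ₗ[F] V) w) = lf (frmQ Q) w ∘ₗ act (O Q) y := by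
        ext v
        show (frmQ Q).B v ((y⁻¹ : V ≃ₗ[F] V) w) = (frmQ Q).B ((y : V ≃ₗ[F] V) v) w
        rw [← (O_le_iso y.2).1 v, hy]
      refine ⟨(y⁻¹ : V ≃ₗ[F] V) w, ⟨?_, ?_⟩, hlf⟩
      · intro x hx
        refine (frmQ Q).refl _ _ ?_
        have h1 := hW hx
        rw [← hlf, LinearMap.mem_ker] at h1
        exact h1
      · rw [← mem_O.1 y.2, hy]
    choose f hf1 hf2 using key
    refine Nat.card_le_card_of_injective (fun d => ⟨f d, hf1 d⟩) fun a b hab => ?_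
    have h1 : f a = f b := congrArg Subtype.val hab
    exact Subtype.ext (by rw [← hf2 a, ← hf2 b, h1])
  have e5 := card_perp_norm hQ W hk hk2 (Q w)
  set q : ℝ := (Nat.card F : ℝ) with hq
  have hq0 : 0 < q := by
    have : 0 < Nat.card F := Nat.card_pos
    rw [hq]
    exact_mod_cast this
  set A : ℝ := (Nat.card {y : O Q // W.map (act (O Q) y) ≤ LinearMap.ker (lf (frmQ Q) w)} : ℝ) with hA
  set R : ℝ := (Nat.card (Set.range fun y : O Q => lf (frmQ Q) w ∘ₗ act (O Q) y) : ℝ) with hR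
  set U : ℝ := (Nat.card {u : V // u ∈ perp (frmQ Q) W ∧ Q u = Q w} : ℝ) with hU
  set o : ℝ := (Nat.card (O Q) : ℝ) with ho
  have g1 : q ^ finrank F V ≤ 2 * q * R := by
    have := e1.trans (Nat.mul_le_mul_left _ e2)
    rw [hq, hR]
    exact_mod_cast this
  have g2 : A * R ≤ U * o := by
    have := e3.trans (Nat.mul_le_mul_right _ e4)
    rw [hA, hR, hU, ho]
    exact_mod_cast this
  have g3 : q * U ≤ 2 * q ^ (finrank F V - k) + q ^ (finrank F V / 2 + 1) := by
    rw [hq, hU]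
    exact_mod_cast e5
  have hA0 : 0 ≤ A := Nat.cast_nonneg _
  have ho0 : 0 ≤ o := Nat.cast_nonneg _
  have hqn : 0 < q ^ finrank F V := by positivity
  have g4 : A * q ^ finrank F V ≤ (4 * q ^ (finrank F V - k) + 2 * q ^ (finrank F V / 2 + 1)) * o := by
    calc A * q ^ finrank F V ≤ A * (2 * q * R) := mul_le_mul_of_nonneg_left g1 hA0
      _ = 2 * q * (A * R) := by ring
      _ ≤ 2 * q * (U * o) := mul_le_mul_of_nonneg_left g2 (by positivity)
      _ = 2 * (q * U) * o := by ring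
      _ ≤ 2 * (2 * q ^ (finrank F V - k) + q ^ (finrank F V / 2 + 1)) * o := by
        refine mul_le_mul_of_nonneg_right ?_ ho0
        linarith
      _ = _ := by ring
  have g5 : q ^ finrank F V = q ^ (finrank F V - k) * q ^ k := by
    rw [← pow_add]; congr 1; omega
  have g6 : (4 : ℝ) / q ^ k + 2 * q ^ (finrank F V / 2 + 2) / q ^ finrank F V =
      (4 * q ^ (finrank F V - k) + 2 * q ^ (finrank F V / 2 + 2)) / q ^ finrank F V := by
    rw [add_div]
    congr 1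
    rw [g5]
    field_simp
  rw [g6, div_mul_eq_mul_div, le_div_iff₀ hqn]
  refine g4.trans (mul_le_mul_of_nonneg_right ?_ ho0)
  have h1q : 1 ≤ q := by
    rw [hq]
    exact_mod_cast (Nat.card_pos (α := F) : 1 ≤ Nat.card F)
  have g7 : q ^ (finrank F V / 2 + 1) ≤ q ^ (finrank F V / 2 + 2) := pow_le_pow_right₀ h1q (by omega)
  linarith

end three

end Cfsg.Agent.H262.Rx
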