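import Cfsg.Agent.H262.Rx.URK
import Cfsg.Agent.H262.Rx.UR2

/-!
# UR2, orthogonal groups (helper262)
-/

set_option autoImplicit false

namespace Cfsg.Agent.H262.Rx

open Module QuadraticMap Cfsg.Agent.H847.Bs Cfsg.Agent.H847.Ux Cfsg.Agent.LieClassical.OrthCore
open Cfsg.Agent.H440.Bs (perp mem_perp)
open Cfsg.Agent.H141.Ux (cnt Sca)

/-- **UR2 for orthogonal groups** -/
theorem ur_om : UrOm := by
  refine ⟨4992, ?_⟩
  intro F V _ _ _ _ _ Q hQ hn ht x hx hxs
  classical
  have hfV : Finite V := Module.finite_of_finite F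
  have hfg := finite_gl (F := F) (V := V)
  have hfd : FiniteDimensional F V := Module.Finite.of_finite
  have hF0 : 0 < Nat.card F := Nat.card_pos
  have hK : Kl (frmQ Q) (E Q) (Nat.card F) := Or.inr (Or.inr ⟨Q, hQ, rfl, rfl, rfl⟩)
  have hV : Nat.card V = Nat.card F ^ finrank F V := Module.natCard_eq_pow_finrank
  let i : E Q →* O Q := Subgroup.inclusion E_le_O
  have hi : Function.Injective i := Subgroup.inclusion_injective E_le_O
  have hcomp : (act (O Q)).comp i = act (E Q) := MonoidHom.ext fun _ => rfl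
  have hm : (Nat.card (O Q) : ℝ) ≤ 4 * Nat.card (E Q) := by
    exact_mod_cast Cfsg.Agent.H765.Bs.card_O_le (Q := Q) hQ (by omega)
  -- one vector
  have h1 : ∀ v : V, v ≠ 0 → Nat.card F ^ (finrank F V - 1) ≤ 2 * Nat.card (Set.range fun y : O Q => act (O Q) y v) := by
    intro v hv
    have e1 := n4' hK (by omega) hv
    have e2 : Nat.card {p : V // ∃ g ∈ E Q, p = g v} ≤ Nat.card (Set.range fun y : O Q => act (O Q) y v) := by
      refine Nat.card_mono (Set.toFinite _) ?_
      rintro p ⟨g, hg, rfl⟩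
      exact ⟨⟨g, E_le_O hg⟩, rfl⟩
    rw [hV] at e1
    refine Nat.le_of_mul_le_mul_left ?_ hF0
    calc Nat.card F * Nat.card F ^ (finrank F V - 1) = Nat.card F ^ finrank F V := by
          rw [← pow_succ']; congr 1; omega
      _ ≤ 2 * Nat.card F * Nat.card {p : V // ∃ g ∈ E Q, p = g v} := e1
      _ ≤ 2 * Nat.card F * Nat.card (Set.range fun y : O Q => act (O Q) y v) := Nat.mul_le_mul_left _ e2
      _ = _ := by ring
  -- the stabiliser of a vector
  have h2 : ∀ v u : V, v ≠ 0 → (¬ ∃ l : F, u = l • v) →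
      Nat.card F ^ (finrank F V - 2) ≤ 2 * Nat.card (sOrb (act (O Q)) v u) := by
    intro v u hv hu
    obtain ⟨e, he, hee, heq, hev⟩ := exists_iso hK (k := 1) (by omega) ![v]
    have hr : Set.range ![v] = {v} := by simp
    rw [hr] at he
    have hev0 : (frmQ Q).B e v = 0 := hev 0
    have e1 := many2 hK (p := v) (e := e) hv he hev0 hee heq u ((frmQ Q).B u v)
    have e2 : Nat.card {x : V // ((frmQ Q).B x v = (frmQ Q).B u v ∧ (frmQ Q).B x e ≠ 0) ∧
        (frmQ Q).B x x = (frmQ Q).B u u ∧ (frmQ Q).q x = (frmQ Q).q u} ≤ Nat.card (sOrb (act (O Q)) v u) := by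
      refine Nat.card_mono (Set.toFinite _) ?_
      rintro p ⟨⟨hp1, hp2⟩, hp3, hp4⟩
      have hli : LinearIndependent F ![v, p] := by
        rw [LinearIndependent.pair_iff' hv]
        intro a ha
        apply hp2
        rw [← ha, (frmQ Q).smul_left, (frmQ Q).refl _ _ hev0, mul_zero]
      have hli' : LinearIndependent F ![v, u] := by
        rw [LinearIndependent.pair_iff' hv]
        intro a ha
        exact hu ⟨a, ha.symm⟩
      obtain ⟨g, hg, h1, h2⟩ := n3 hK (by omega) hli' hli rfl (hK.swap hp1.symm) hp1.symm hp3.symm rfl hp4.symm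
      exact ⟨⟨g, E_le_O hg⟩, h1, h2⟩
    rw [hV] at e1
    refine Nat.le_of_mul_le_mul_left ?_ (Nat.mul_pos hF0 hF0)
    calc Nat.card F * Nat.card F * Nat.card F ^ (finrank F V - 2) = Nat.card F ^ finrank F V := by
          rw [← pow_two, ← pow_add]; congr 1; omega
      _ ≤ _ := e1
      _ ≤ 2 * Nat.card F * Nat.card F * Nat.card (sOrb (act (O Q)) v u) := Nat.mul_le_mul_left _ e2
      _ = _ := by ring
  have ht' : (4 : ℝ) ≤ Nat.card F := by exact_mod_cast ht
  -- the final form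
  have key := red_of_kinds (act (O Q)) i hi hm hn (q := (Nat.card F : ℝ)) (C1 := 4) ht' le_rfl (by norm_num)
    (fun _ => Fin 4) (fun _ j W => Kd Q j W)
    (fun k hk => by
      have e1 : (1 : ℝ) ≤ ((Nat.card F : ℝ) / 2) ^ (k - 1) := one_le_pow₀ (by linarith)
      rw [Fintype.card_fin]
      norm_num
      linarith)
    (fun k hk => by
      have e1 : (1 : ℝ) ≤ 2 ^ k := one_le_pow₀ (by norm_num)
      rw [Fintype.card_fin]
      norm_num
      nlinarith)
    (fun k hk1 hk2 j W W' hW hW' hd hd' => by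
      obtain ⟨g, hg, e⟩ := om_trans hQ hW hW' (hd.trans hd'.symm) (by omega)
      exact ⟨⟨g, hg⟩, e⟩)
    h1 h2 (fun k hk1 hk2 j W _ hd c hc => om_three hQ (by omega) W hd hk2 c hc) ⟨x, hx⟩ hxs
    (fun z hz => by
      obtain ⟨R, h0, hd, hRa, hRb, j, hj⟩ := om_cover hQ (a := i ⟨x, hx⟩) (b := i z) hz
      refine ⟨finrank F R, ?_, hd, j, R, rfl, hj, hRa, hRb⟩
      rw [Nat.one_le_iff_ne_zero, Ne, Submodule.finrank_eq_zero]
      exact h0)
  rw [hcomp] at key
  have e1 : (cnt (E Q) (fun y => ¬ IrrG (Subgroup.closure {x, y})) : ℝ) ≤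
      (Nat.card {z : E Q // Red (act (E Q)) ⟨x, hx⟩ z} : ℝ) := by
    exact_mod_cast cnt_red (E Q) x hx
  have e2 := e1.trans key
  have hF0' : (0 : ℝ) < Nat.card F := by exact_mod_cast hF0
  have e3 : (4 : ℝ) * ((12 * 4 + 1200) / (Nat.card F : ℝ)) * Nat.card (E Q) = 4992 * Nat.card (E Q) / Nat.card F := by ring
  rw [e3, le_div_iff₀ hF0'] at e2
  exact e2

/-- **UR2** -/
theorem ur2' : Cfsg.Agent.H141.Ux.UR2 := ur2 ur_om

end Cfsg.Agent.H262.Rx
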