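import Cfsg.Agent.H262.Rx.UR0
import Cfsg.Agent.H450.UF.Geo
import Cfsg.Agent.H450.UF.Count
import Cfsg.Agent.H450.Bs.GenU
import Cfsg.Agent.S0752

/-!
# UR2 for symplectic and unitary groups (helper262): transitivity on subspaces

* `ur_sp`, `ur_su`.
-/

set_option autoImplicit false

namespace Cfsg.Agent.H262.Rx

open Module Cfsg.Agent.H847.Bs Cfsg.Agent.H847.Ux
open Cfsg.Agent.H440.Bs (perp mem_perp)
open Cfsg.Agent.H141.Ux (cnt Sca)

variable {F V : Type*} [Field F] [AddCommGroup V] [Module F V]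

/-- the bilinear form -/
def bil {Φ : Frm F V} (h : IsSp Φ) : LinearMap.BilinForm F V :=
  LinearMap.mk₂ F Φ.B Φ.add_left Φ.smul_left Φ.add_right (fun c x y => by rw [Φ.smul_right, h.s, smul_eq_mul])

theorem bil_apply {Φ : Frm F V} (h : IsSp Φ) (x y : V) : bil h x y = Φ.B x y := rfl

theorem sform_bil {Φ : Frm F V} (h : IsSp Φ) : Cfsg.Agent.H91.Symp.SForm (bil h) where
  nd := ⟨fun x hx => h.nd x hx, fun x hx => h.nd x fun y => Φ.refl _ _ (hx y)⟩
  alt := h.alt

/-- Witt's theorem for bases of subspaces -/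
theorem sp_of_bases [FiniteDimensional F V] {Φ : Frm F V} (h : IsSp Φ) {ι : Type*} {W W' : Submodule F V}
    (b : Basis ι F W) (b' : Basis ι F W') (hb : ∀ i j, Φ.B (b i) (b j) = Φ.B (b' i) (b' j)) :
    ∃ g ∈ Φ.Iso, W.map (g : V →ₗ[F] V) = W' := by
  obtain ⟨g, hg, hgu⟩ := Cfsg.Agent.H91.Symp.witt_family (sform_bil h) (w := fun i => (b i : V)) (w' := fun i => (b' i : V))
    (b.linearIndependent.map' W.subtype (Submodule.ker_subtype W))
    (b'.linearIndependent.map' W'.subtype (Submodule.ker_subtype W')) hb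
  refine ⟨g, ⟨fun x y => hg x y, fun x => by rw [h.q, h.q]⟩, ?_⟩
  have hW : W = Submodule.span F (Set.range fun i => (b i : V)) := by
    have h1 : Set.range (fun i => (b i : V)) = W.subtype '' Set.range b := by rw [← Set.range_comp]; rfl
    rw [h1, ← Submodule.map_span, b.span_eq, Submodule.map_top, Submodule.range_subtype]
  have hW' : W' = Submodule.span F (Set.range fun i => (b' i : V)) := by
    have h1 : Set.range (fun i => (b' i : V)) = W'.subtype '' Set.range b' := by rw [← Set.range_comp]; rfl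
    rw [h1, ← Submodule.map_span, b'.span_eq, Submodule.map_top, Submodule.range_subtype]
  rw [hW, hW', Submodule.map_span, ← Set.range_comp]
  congr 2
  funext i
  exact hgu i

theorem sp_ti [FiniteDimensional F V] {Φ : Frm F V} (h : IsSp Φ) {W W' : Submodule F V} (hd : finrank F W = finrank F W')
    (hW : ∀ x ∈ W, ∀ y ∈ W, Φ.B x y = 0) (hW' : ∀ x ∈ W', ∀ y ∈ W', Φ.B x y = 0) :
    ∃ g ∈ Φ.Iso, W.map (g : V →ₗ[F] V) = W' :=
  sp_of_bases h (finBasis F W) ((finBasis F W').reindex (finCongr hd.symm)) fun i j => by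
    rw [hW _ (Subtype.property _) _ (Subtype.property _), hW' _ (Subtype.property _) _ (Subtype.property _)]

/-- symplectic bases of nondegenerate subspaces -/
theorem exists_symp [FiniteDimensional F V] {Φ : Frm F V} (h : IsSp Φ) {W : Submodule F V} (hW : Φ.NdOn W) :
    ∃ (m : ℕ) (b : Basis (Fin m ⊕ Fin m) F W),
      (∀ i j, Φ.B (b (Sum.inl i)) (b (Sum.inr j)) = if i = j then 1 else 0) ∧
      (∀ i j, Φ.B (b (Sum.inl i)) (b (Sum.inl j)) = 0) ∧ ∀ i j, Φ.B (b (Sum.inr i)) (b (Sum.inr j)) = 0 := by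
  let B : LinearMap.BilinForm F W := (bil h).compl₁₂ W.subtype W.subtype
  obtain ⟨m, k, b, h1, h2, h3, h4⟩ := Cfsg.Agent.S0752.result B (fun x => h.alt x)
  have hk : IsEmpty (Fin k) := by
    refine ⟨fun j => ?_⟩
    have h5 : (b (Sum.inr j) : V) = 0 := hW _ (Subtype.property _) fun y hy => h4 j ⟨y, hy⟩
    exact b.ne_zero (Sum.inr j) (Subtype.ext h5)
  exact ⟨m, b.reindex (Equiv.sumEmpty _ _), fun i j => by
      have : Φ.B (b (Sum.inl (Sum.inl i)) : V) (b (Sum.inl (Sum.inr j)) : V) = if i = j then 1 else 0 := h1 i j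
      simpa using this, fun i j => by
      have : Φ.B (b (Sum.inl (Sum.inl i)) : V) (b (Sum.inl (Sum.inl j)) : V) = 0 := h2 i j
      simpa using this, fun i j => by
      have : Φ.B (b (Sum.inl (Sum.inr i)) : V) (b (Sum.inl (Sum.inr j)) : V) = 0 := h3 i j
      simpa using this⟩

theorem sp_nd [FiniteDimensional F V] {Φ : Frm F V} (h : IsSp Φ) {W W' : Submodule F V} (hd : finrank F W = finrank F W')
    (hW : Φ.NdOn W) (hW' : Φ.NdOn W') :
    ∃ g ∈ Φ.Iso, W.map (g : V →ₗ[F] V) = W' := by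
  obtain ⟨m, b, h1, h2, h3⟩ := exists_symp h hW
  obtain ⟨m', b', h1', h2', h3'⟩ := exists_symp h hW'
  have e1 := finrank_eq_card_basis b
  have e2 := finrank_eq_card_basis b'
  rw [Fintype.card_sum, Fintype.card_fin] at e1 e2
  obtain rfl : m = m' := by omega
  refine sp_of_bases h b b' ?_
  have hs : ∀ x y, Φ.B x y = - Φ.B y x := fun x y => (sform_bil h).swap x y
  rintro (i | i) (j | j)
  · rw [h2, h2']
  · rw [h1, h1']
  · rw [hs, h1, hs, h1']
  · rw [h3, h3']

/-- **UR2 for symplectic groups** -/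
theorem ur_sp [Finite F] [Finite V] {Φ : Frm F V} (h : IsSp Φ) (ht : 4 ≤ Nat.card F) (hn : 8 ≤ finrank F V)
    (x : V ≃ₗ[F] V) (hx : x ∈ Φ.Iso) (hxs : ¬ Sca x) :
    (cnt Φ.Iso (fun y => ¬ IrrG (Subgroup.closure {x, y})) : ℝ) * Nat.card F ≤ 1224 * Nat.card Φ.Iso := by
  have hfd : FiniteDimensional F V := Module.Finite.of_finite
  exact red_kl (Or.inl ⟨h, rfl, rfl⟩) le_rfl (one_mul _) ht hn
    (fun k _ _ W W' hW hW' hd hd' => sp_ti h (hd.trans hd'.symm) hW hW')
    (fun k _ _ W W' hW hW' hd hd' => sp_nd h (hd.trans hd'.symm) hW hW') x hx hxs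

section herm

open Cfsg.Agent.H450.Bs (toB hform_toB iso_iff siso_toB)
open Cfsg.Agent.H91.U (HForm SIso)

theorem su_ti [Finite F] [FiniteDimensional F V] {Φ : Frm F V} {r : ℕ} (h : IsHerm r Φ) {W W' : Submodule F V}
    (hd : finrank F W = finrank F W') (hW : ∀ x ∈ W, ∀ y ∈ W, Φ.B x y = 0) (hW' : ∀ x ∈ W', ∀ y ∈ W', Φ.B x y = 0) :
    ∃ g ∈ Φ.Iso ⊓ slV F V, W.map (g : V →ₗ[F] V) = W' := by
  have := Fintype.ofFinite F
  have hF : Fintype.card F = r ^ 2 := by rw [← Nat.card_eq_fintype_card]; exact h.card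
  obtain ⟨u, hu, e1⟩ := Cfsg.Agent.H450.UF.exists_frame_of_ti (B := toB hF h) (C := W) (j := finrank F W)
    (fun x hx y hy => hW y hy x hx) rfl
  obtain ⟨u', hu', e2⟩ := Cfsg.Agent.H450.UF.exists_frame_of_ti (B := toB hF h) (C := W') (j := finrank F W)
    (fun x hx y hy => hW' y hy x hx) hd.symm
  obtain ⟨g, hg, hgu⟩ := Cfsg.Agent.H450.UF.exists_flag_map0 (hform_toB hF h) hu hu'
  rw [siso_toB] at hg
  refine ⟨g, hg, ?_⟩
  have e3 := hgu (finrank F W)
  rw [e1, e2] at e3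
  exact e3

theorem su_nd [Finite F] [FiniteDimensional F V] {Φ : Frm F V} {r : ℕ} (h : IsHerm r Φ) {W W' : Submodule F V}
    (hk : 1 ≤ finrank F W) (hd : finrank F W = finrank F W') (hW : Φ.NdOn W) (hW' : Φ.NdOn W') :
    ∃ g ∈ Φ.Iso ⊓ slV F V, W.map (g : V →ₗ[F] V) = W' := by
  have := Fintype.ofFinite F
  have hF : Fintype.card F = r ^ 2 := by rw [← Nat.card_eq_fintype_card]; exact h.card
  have hB := hform_toB hF h
  have hr : ∀ {U : Submodule F V}, Φ.NdOn U → HForm (Cfsg.Agent.H450.Bs.res (toB hF h) U) := fun hU =>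
    Cfsg.Agent.H450.Bs.hform_res hB fun x hx hx' => hU x hx fun y hy => Φ.refl _ _ (hx' y hy)
  obtain ⟨b, hb⟩ := Cfsg.Agent.H450.UF.exists_orthonormal_basis (hr hW)
  obtain ⟨b', hb'⟩ := Cfsg.Agent.H450.UF.exists_orthonormal_basis (hr hW')
  let c := b'.reindex (finCongr hd.symm)
  have hc : ∀ i l, toB hF h (c i) (c l) = if i = l then 1 else 0 := by
    intro i l
    have e1 := hb' ((finCongr hd.symm).symm i) ((finCongr hd.symm).symm l)
    have e2 : toB hF h (c i) (c l) = if (finCongr hd.symm).symm i = (finCongr hd.symm).symm l then 1 else 0 := by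
      rw [← e1]
      simp only [c, Basis.reindex_apply]
      rfl
    rw [e2]
    simp only [EmbeddingLike.apply_eq_iff_eq]
  obtain ⟨g, hg, hgb⟩ := Cfsg.Agent.H91.U.witt_family hB (w := fun i => (b i : V)) (w' := fun i => (c i : V))
    (b.linearIndependent.map' W.subtype (Submodule.ker_subtype W))
    (c.linearIndependent.map' W'.subtype (Submodule.ker_subtype W')) (fun i j => (hb i j).trans (hc i j).symm)
  have hgI : g ∈ Φ.Iso := (iso_iff hF h).2 hg
  have hgood := Cfsg.Agent.H42.Bs.good_of_herm h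
  have hdet := Cfsg.Agent.H42.Bs.det_norm hgood hgI
  rw [h.s] at hdet
  set δ := LinearMap.det (g : V →ₗ[F] V) with hδ
  have hon : IsHerm r (Φ.on W) :=
    { nd := fun x hx => Subtype.ext (hW x x.2 fun y hy => hx ⟨y, hy⟩)
      card := h.card
      s := h.s
      q := fun x => h.q x
      symm := fun x y => h.symm x y }
  have hδ0 : δ ≠ 0 := by
    intro h0
    rw [h0, zero_mul] at hdet
    exact zero_ne_one hdet
  obtain ⟨w, hw, hwd⟩ := Cfsg.Agent.H42.Bs.exists_det hon hk (μ := δ⁻¹) (by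
    rw [inv_pow, ← mul_inv, hdet, inv_one])
  have hdec := Cfsg.Agent.H42.Bs.dec_perp hgood hW
  obtain ⟨κ, hκ⟩ := hgood.quad
  set z := glue hdec.compl w 1 with hz
  have hz1 : z ∈ Φ.Iso := Cfsg.Agent.H42.Bs.glue_mem_Iso hκ hdec hw (one_mem _)
  have hz2 : LinearMap.det (z : V →ₗ[F] V) = δ⁻¹ := by
    rw [hz, Cfsg.Agent.H42.Bs.det_glue, hwd]
    have : LinearMap.det ((1 : Cfsg.Agent.H42.Bs.perp Φ W ≃ₗ[F] Cfsg.Agent.H42.Bs.perp Φ W) :
        Cfsg.Agent.H42.Bs.perp Φ W →ₗ[F] Cfsg.Agent.H42.Bs.perp Φ W) = 1 := LinearMap.det_id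
    rw [this, mul_one]
  have hz3 : W.map (z : V →ₗ[F] V) = W := Cfsg.Agent.H440.Bs.Inv.map_eq (Cfsg.Agent.H440.Bs.glue_inv_left _ _ _)
  have hWs : W = Submodule.span F (Set.range fun i => (b i : V)) := by
    have h1 : Set.range (fun i => (b i : V)) = W.subtype '' Set.range b := by rw [← Set.range_comp]; rfl
    rw [h1, ← Submodule.map_span, b.span_eq, Submodule.map_top, Submodule.range_subtype]
  have hWs' : W' = Submodule.span F (Set.range fun i => (c i : V)) := by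
    have h1 : Set.range (fun i => (c i : V)) = W'.subtype '' Set.range c := by rw [← Set.range_comp]; rfl
    rw [h1, ← Submodule.map_span, c.span_eq, Submodule.map_top, Submodule.range_subtype]
  have hgW : W.map (g : V →ₗ[F] V) = W' := by
    rw [hWs, hWs', Submodule.map_span, ← Set.range_comp]
    congr 2
    funext i
    exact hgb i
  refine ⟨g * z, ⟨mul_mem hgI hz1, ?_⟩, ?_⟩
  · show LinearMap.det ((g : V →ₗ[F] V) ∘ₗ (z : V →ₗ[F] V)) = 1
    rw [LinearMap.det_comp, hz2, ← hδ, mul_inv_cancel₀ hδ0]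
  · show W.map ((g : V →ₗ[F] V) ∘ₗ (z : V →ₗ[F] V)) = W'
    rw [Submodule.map_comp, hz3, hgW]

/-- **UR2 for unitary groups** -/
theorem ur_su [Finite F] [Finite V] {Φ : Frm F V} {r : ℕ} (h : IsHerm r Φ) (ht : 4 ≤ r) (hn : 8 ≤ finrank F V)
    (x : V ≃ₗ[F] V) (hx : x ∈ Φ.Iso ⊓ slV F V) (hxs : ¬ Sca x) :
    (cnt (Φ.Iso ⊓ slV F V) (fun y => ¬ IrrG (Subgroup.closure {x, y})) : ℝ) * r ≤
      1224 * Nat.card (Φ.Iso ⊓ slV F V : Subgroup (V ≃ₗ[F] V)) := by
  have hfd : FiniteDimensional F V := Module.Finite.of_finite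
  exact red_kl (Or.inr (Or.inl ⟨r, h, rfl, rfl⟩)) inf_le_left (by rw [h.card, pow_two]) ht hn
    (fun k _ _ W W' hW hW' hd hd' => su_ti h (hd.trans hd'.symm) hW hW')
    (fun k hk _ W W' hW hW' hd hd' => su_nd h (by omega) (hd.trans hd'.symm) hW hW') x hx hxs

end herm

end Cfsg.Agent.H262.Rx
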